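import Cfsg.Agent.N2.Sp.Eng

/-!
# N2 (S3519), sporadic groups: an exact search for the numbers of the elements of the types (helper45)

The unknown numbers `a t` satisfy inequalities, congruences in triangular form, and have a given sum.
-/

set_option autoImplicit false

namespace Cfsg.Agent.N2.Sp1

open Cfsg Cfsg.Agent.TAB.Eng Cfsg.Agent.TH.Spor Cfsg.Agent.N2.Sp
open Cfsg.Agent.SM.Sp (cond_ff)

/-- `P + x c` -/
noncomputable def upZ (x : ℤ) (P : List ℤ) : List ℤ → (List ℤ → Bool) → Bool :=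
  List.rec (fun _ k => k []) (fun p _ ih c k => List.rec (k []) (fun b c' _ =>
    frcZ (Int.add p (Int.mul x b)) fun y => ih c' fun l => k (y :: l)) c) P

theorem upZ_eq (x : ℤ) (P c : List ℤ) (k : List ℤ → Bool) :
    upZ x P c k = k (List.zipWith (fun p b => p + x * b) P c) := by
  induction P generalizing c k with
  | nil => rfl
  | cons p P ih =>
    cases c with
    | nil => rfl
    | cons b c => exact (frcZ_eq (p + x * b) fun y => upZ x P c fun l => k (y :: l)).trans (ih c _)

/-- `Q + x c` -/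
noncomputable def upN (x : ℕ) (Q : List ℕ) : List ℕ → (List ℕ → Bool) → Bool :=
  List.rec (fun _ k => k []) (fun p _ ih c k => List.rec (k []) (fun b c' _ =>
    frc (Nat.add p (Nat.mul x b)) fun y => ih c' fun l => k (y :: l)) c) Q

theorem upN_eq (x : ℕ) (Q c : List ℕ) (k : List ℕ → Bool) :
    upN x Q c k = k (List.zipWith (fun p b => p + x * b) Q c) := by
  induction Q generalizing c k with
  | nil => rfl
  | cons p P ih =>
    cases c with
    | nil => rfl
    | cons b c => exact (frc_eq (p + x * b) fun y => upN x P c fun l => k (y :: l)).trans (ih c _)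

theorem fa_zip {α β : Type} {r s : α → β → Prop} {f : α → α → α} {g : β → α} (hf : ∀ p w, r p w → s (f p (g w)) w)
    {P : List α} {W : List β} (h : List.Forall₂ r P W) : List.Forall₂ s (List.zipWith f P (W.map g)) W := by
  induction h with
  | nil => exact .nil
  | cons h _ ih => exact .cons (hf _ _ h) ih

theorem fa_map {α β : Type} {r : α → β → Prop} {g : β → α} {W : List β} (h : ∀ w ∈ W, r (g w) w) :
    List.Forall₂ r (W.map g) W := by
  induction W with
  | nil => exact .nil
  | cons w W ih => exact .cons (h w List.mem_cons_self) (ih fun v hv => h v (List.mem_cons_of_mem _ hv))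

/-- some inequality fails -/
noncomputable def cut (r : ℤ) (P : List ℤ) : List ℤ → Bool :=
  List.rec (fun _ => false) (fun p _ ih c => List.rec false (fun b c' _ =>
    Int.rec (fun _ => ih c') (fun _ => true) (Int.add p (Int.mul r b))) c) P

theorem cut_false {β : Type} {r : ℤ} {g : β → ℤ} {P : List ℤ} {W : List β}
    (h : List.Forall₂ (fun p w => 0 ≤ p + r * g w) P W) : cut r P (W.map g) = false := by
  induction h with
  | nil => rfl
  | @cons p w P W h _ ih =>
    show Int.rec (motive := fun _ => Bool) (fun _ => cut r P (W.map g)) (fun _ => true) (p + r * g w) = false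
    obtain ⟨n, hn⟩ := Int.eq_ofNat_of_zero_le h
    rw [hn]
    exact ih

/-- some entry is negative -/
noncomputable def neg (P : List ℤ) : Bool := anyL (fun p => Int.rec (fun _ => false) (fun _ => true) p) P

/-- the largest value -/
noncomputable def mxz (w : List ℤ) (t : ℕ) (V : List ℕ) : ℤ := List.rec (nth w t) (fun u _ ih => max (nth w u) ih) V

theorem le_mxz (w : List ℤ) (t : ℕ) (V : List ℕ) : ∀ u ∈ t :: V, nth w u ≤ mxz w t V := by
  induction V with
  | nil => exact fun u hu => List.mem_singleton.1 hu ▸ le_rfl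
  | cons v V ih =>
    intro u hu
    show _ ≤ max (nth w v) (mxz w t V)
    rcases List.mem_cons.1 hu with rfl | hu
    · exact le_max_of_le_right (ih _ List.mem_cons_self)
    rcases List.mem_cons.1 hu with rfl | hu
    · exact le_max_left _ _
    · exact le_max_of_le_right (ih _ (List.mem_cons_of_mem _ hu))

/-- a loop -/
noncomputable def lp (go : ℕ → Bool) (c : ℕ) : Bool := Nat.rec true (fun i ih => cond (go i) ih false) c

theorem lp_spec {go : ℕ → Bool} {c : ℕ} (h : lp go c = true) : ∀ i < c, go i = true := by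
  induction c with
  | zero => exact fun _ h => absurd h (Nat.not_lt_zero _)
  | succ c ih =>
    obtain ⟨h1, h2⟩ := cond_ff (show cond (go c) (lp go c) false = true from h)
    exact fun i hi => (Nat.lt_succ_iff_lt_or_eq.1 hi).elim (ih h2 i) fun e => e ▸ h1

/-- the searches: remaining sum, partial sums, values -/
abbrev Fn : Type := ℕ → List ℤ → List ℕ → List (ℕ × ℕ) → Bool

/-- the last level -/
noncomputable def leaf (κ : List (ℕ × ℕ) → Bool) : Fn := fun rem P _ acc =>
  cond (Nat.beq rem 0) (cond (neg P) true (κ acc)) true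

/-- one value -/
noncomputable def go (t : ℕ) (cp : List ℤ) (cq : List ℕ) (nx : Fn) (rem : ℕ) (P : List ℤ) (Q : List ℕ)
    (acc : List (ℕ × ℕ)) (x : ℕ) : Bool :=
  frc (Nat.sub rem x) fun rem' => upZ (Int.ofNat x) P cp fun P' => upN x Q cq fun Q' => nx rem' P' Q' ((t, x) :: acc)

/-- one level -/
noncomputable def node (t lo g s : ℕ) (cp mx : List ℤ) (cq : List ℕ) (nx : Fn) : Fn := fun rem P Q acc =>
  cond (cut (Int.ofNat rem) P mx) true (List.rec false (fun q Q' _ => cond (Nat.beq (Nat.mod q g) 0)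
    (frc (Nat.mod (Nat.sub s (Nat.mod (Nat.div q g) s)) s) fun r =>
      cond (cond (Nat.beq r 0) (nx rem P Q' ((t, 0) :: acc)) true)
        (frc (Nat.div lo s) fun i0 => lp (fun i => frc (Nat.add (Nat.mul s (Nat.add i0 i)) r) fun x =>
          cond (Nat.ble lo x) (cond (Nat.ble x rem) (go t cp cq nx rem P Q' acc x) true) true)
          (Nat.sub (Nat.succ (Nat.div rem s)) i0)) false) true) Q)

/-- the levels -/
noncomputable def lev (M : ℕ) (lo : ℕ → ℕ) (WP : List (List ℤ)) (κ : List (ℕ × ℕ) → Bool) (V : List ℕ) :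
    List (List ℕ) → (Fn → Bool) → Bool :=
  List.rec (fun _ k => k (leaf κ)) (fun t V' ih WM k => List.rec false (fun w WM' _ =>
    cond (allL (fun u => Nat.beq (ntd w 0 u) 0) V')
      (frc (cond (Nat.beq (ntd w 0 t) 0) M (ntd w 0 t)) fun g => cond (Nat.beq (Nat.mod M g) 0)
        (frc (Nat.div M g) fun s => frc (lo t) fun l => frcLZ (mapL (fun v => nth v t) WP) fun cp =>
          frcLZ (mapL (fun v => mxz v t V') WP) fun mx => frcL (mapL (fun v => ntd v 0 t) WM') fun cq =>
            ih WM' fun nx => k (node t l g s cp mx cq nx)) false) false) WM) V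

variable {a : ℕ → ℕ}

/-- the sum of an integral vector -/
noncomputable def sZ (a : ℕ → ℕ) (V : List ℕ) (w : List ℤ) : ℤ := (V.map fun t => (a t : ℤ) * nth w t).sum

/-- the sum of a natural vector -/
noncomputable def sN (a : ℕ → ℕ) (V : List ℕ) (w : List ℕ) : ℕ := (V.map fun t => a t * ntd w 0 t).sum

/-- the values -/
def vals (a : ℕ → ℕ) (V : List ℕ) (acc : List (ℕ × ℕ)) : List (ℕ × ℕ) := V.foldl (fun l t => (t, a t) :: l) acc

/-- the search is sound -/
def Snd (a : ℕ → ℕ) (M : ℕ) (WP : List (List ℤ)) (κ : List (ℕ × ℕ) → Bool) (V : List ℕ) (WM : List (List ℕ)) (F : Fn) :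
    Prop := ∀ P Q acc, List.Forall₂ (fun p w => 0 ≤ p + sZ a V w) P WP →
  List.Forall₂ (fun q w => M ∣ q + sN a V w) Q WM → F (V.map a).sum P Q acc = true → κ (vals a V acc) = true

theorem sZ_le {V : List ℕ} {w : List ℤ} {b : ℤ} (h : ∀ u ∈ V, nth w u ≤ b) : sZ a V w ≤ ((V.map a).sum : ℕ) * b := by
  induction V with
  | nil => simp [sZ]
  | cons t V ih =>
    have h1 := ih fun u hu => h u (List.mem_cons_of_mem _ hu)
    have h2 := mul_le_mul_of_nonneg_left (h t List.mem_cons_self) (Int.natCast_nonneg (a t))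
    simp only [sZ, List.map_cons, List.sum_cons, Nat.cast_add, add_mul] at h1 ⊢
    exact add_le_add h2 h1

theorem sN_zero {V : List ℕ} {w : List ℕ} (h : ∀ u ∈ V, ntd w 0 u = 0) : sN a V w = 0 :=
  List.sum_eq_zero fun x hx => by
    obtain ⟨u, hu, rfl⟩ := List.mem_map.1 hx
    rw [h u hu, mul_zero]

theorem res_eq {g s q x : ℕ} (hg : 0 < g) (hs : 0 < s) (h : g * s ∣ q + x * g) :
    q % g = 0 ∧ x % s = (s - q / g % s) % s := by
  have h1 : g ∣ q := (Nat.dvd_add_left (dvd_mul_left g x)).1 ((dvd_mul_right g s).trans h)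
  obtain ⟨u, rfl⟩ := h1
  rw [mul_comm x, ← mul_add, Nat.mul_dvd_mul_iff_left hg] at h
  rw [Nat.mul_div_cancel_left _ hg]
  refine ⟨Nat.mul_mod_right g u, ?_⟩
  have h2 : s ∣ u % s + x % s := by
    rw [Nat.dvd_iff_mod_eq_zero, ← Nat.add_mod]
    exact Nat.mod_eq_zero_of_dvd h
  have h3 := Nat.mod_lt u hs
  have h4 := Nat.mod_lt x hs
  obtain ⟨c, hc⟩ := h2
  have h5 : c < 2 := Nat.lt_of_mul_lt_mul_left (a := s) (by omega)
  obtain rfl | rfl : c = 0 ∨ c = 1 := by omega
  · have h6 : u % s = 0 := by omega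
    rw [h6, Nat.sub_zero, Nat.mod_self]
    omega
  · rw [show s - u % s = x % s by omega, Nat.mod_mod]

theorem snd_leaf {M : ℕ} {WP : List (List ℤ)} {κ : List (ℕ × ℕ) → Bool} {WM : List (List ℕ)} :
    Snd a M WP κ [] WM (leaf κ) := by
  intro P Q acc hP _ h
  have h1 : cond (neg P) true (κ acc) = true := h
  cases h2 : neg P with
  | false => rwa [h2] at h1
  | true =>
    obtain ⟨p, h3, h4⟩ := anyL_spec h2
    obtain ⟨i, hi, rfl⟩ := List.getElem_of_mem h3
    have h5 := (List.forall₂_iff_get.1 hP).2 i hi (hP.length_eq ▸ hi)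
    obtain ⟨n, hn⟩ := Int.eq_ofNat_of_zero_le (show 0 ≤ P[i] by simpa [sZ] using h5)
    rw [hn] at h4
    cases h4

theorem snd_node {M t lo g s : ℕ} {WP : List (List ℤ)} {κ : List (ℕ × ℕ) → Bool} {V : List ℕ} {w : List ℕ}
    {WM : List (List ℕ)} {nx : Fn} (h0 : 0 < M) (hM : M = g * s) (hg : g = ntd w 0 t ∨ (g = M ∧ ntd w 0 t = 0))
    (hw : ∀ u ∈ V, ntd w 0 u = 0) (hl : a t = 0 ∨ lo ≤ a t) (hn : Snd a M WP κ V WM nx) :
    Snd a M WP κ (t :: V) (w :: WM) (node t lo g s (WP.map fun v => nth v t) (WP.map fun v => mxz v t V)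
      (WM.map fun v => ntd v 0 t) nx) := by
  intro P Q acc hP hQ h
  obtain ⟨q, Q', h1, h2, rfl⟩ : ∃ q Q', M ∣ q + sN a (t :: V) w ∧
      List.Forall₂ (fun q w => M ∣ q + sN a (t :: V) w) Q' WM ∧ Q = q :: Q' := by
    cases hQ with
    | cons h1 h2 => exact ⟨_, _, h1, h2, rfl⟩
  have h3 : cut (Int.ofNat ((t :: V).map a).sum) P (WP.map fun v => mxz v t V) = false :=
    cut_false (hP.imp fun p v h3 => h3.trans (add_le_add_right (sZ_le (le_mxz v t V)) p))
  have hg0 : 0 < g := Nat.pos_of_mul_pos_right (hM ▸ h0)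
  have hs0 : 0 < s := Nat.pos_of_mul_pos_left (hM ▸ h0)
  have h4 : g * s ∣ q + a t * g := by
    have h4 : sN a (t :: V) w = a t * ntd w 0 t + sN a V w := rfl
    rw [h4, sN_zero hw, add_zero] at h1
    rcases hg with h5 | ⟨h5, h6⟩
    · rwa [← hM, h5]
    · rw [h6, mul_zero, add_zero] at h1
      rw [← hM, h5]
      exact dvd_add h1 (dvd_mul_left _ _)
  obtain ⟨h5, h6⟩ := res_eq hg0 hs0 h4
  rw [node, h3, cond_false] at h
  have h7 : cond (Nat.beq (q % g) 0) (frc ((s - q / g % s) % s) fun r =>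
      cond (cond (Nat.beq r 0) (nx ((t :: V).map a).sum P Q' ((t, 0) :: acc)) true)
        (frc (lo / s) fun i0 => lp (fun i => frc (s * (i0 + i) + r) fun x =>
          cond (Nat.ble lo x) (cond (Nat.ble x ((t :: V).map a).sum) (go t (WP.map fun v => nth v t)
            (WM.map fun v => ntd v 0 t) nx ((t :: V).map a).sum P Q' acc x) true) true)
          (((t :: V).map a).sum / s + 1 - i0)) false) true = true := h
  rw [h5, Nat.beq_refl, cond_true, frc_eq, ← h6, frc_eq] at h7
  obtain ⟨h8, h9⟩ := cond_ff h7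
  have e1 : ((t :: V).map a).sum = a t + (V.map a).sum := rfl
  have e2 : ∀ v, sZ a (t :: V) v = a t * nth v t + sZ a V v := fun _ => rfl
  have e3 : ∀ v, sN a (t :: V) v = a t * ntd v 0 t + sN a V v := fun _ => rfl
  show κ (vals a V ((t, a t) :: acc)) = true
  rcases hl with hl | hl
  · rw [hl, Nat.zero_mod, Nat.beq_refl, cond_true, e1, hl, zero_add] at h8
    rw [hl]
    exact hn P Q' _ (hP.imp fun p v h => by simpa [e2, hl] using h) (h2.imp fun p v h => by simpa [e3, hl] using h) h8
  · have h10 := Nat.div_le_div_right (c := s) hl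
    have h11 := Nat.div_le_div_right (c := s) (show a t ≤ ((t :: V).map a).sum from Nat.le_add_right _ _)
    have h12 := lp_spec h9 (a t / s - lo / s) (by omega)
    rw [frc_eq, Nat.add_sub_cancel' h10, Nat.div_add_mod, Nat.ble_eq_true_of_le hl, cond_true,
      Nat.ble_eq_true_of_le (show a t ≤ ((t :: V).map a).sum from Nat.le_add_right _ _), cond_true, go, frc_eq, upZ_eq,
      upN_eq, e1, Nat.sub_eq, Nat.add_sub_cancel_left] at h12
    exact hn _ _ _ (fa_zip (fun p v h => by rw [add_assoc]; exact h) hP) (fa_zip (fun p v h => by rw [add_assoc]; exact h) h2)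
      h12

theorem snd_lev {M : ℕ} {lo : ℕ → ℕ} {WP : List (List ℤ)} {κ : List (ℕ × ℕ) → Bool} (h0 : 0 < M) (V : List ℕ)
    (hl : ∀ t ∈ V, a t = 0 ∨ lo t ≤ a t) : ∀ {WM : List (List ℕ)} {k : Fn → Bool}, lev M lo WP κ V WM k = true →
      ∃ F, k F = true ∧ Snd a M WP κ V WM F := by
  induction V with
  | nil => exact fun h => ⟨_, h, snd_leaf⟩
  | cons t V ih =>
    intro WM k h
    cases WM with
    | nil => cases h
    | cons w WM =>
    have h1 : cond (allL (fun u => Nat.beq (ntd w 0 u) 0) V)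
      (frc (cond (Nat.beq (ntd w 0 t) 0) M (ntd w 0 t)) fun g => cond (Nat.beq (M % g) 0)
        (frc (M / g) fun s => frc (lo t) fun l => frcLZ (mapL (fun v => nth v t) WP) fun cp =>
          frcLZ (mapL (fun v => mxz v t V) WP) fun mx => frcL (mapL (fun v => ntd v 0 t) WM) fun cq =>
            lev M lo WP κ V WM fun nx => k (node t l g s cp mx cq nx)) false) false = true := h
    obtain ⟨h2, h3⟩ := cond_ff h1
    rw [frc_eq] at h3
    obtain ⟨h4, h5⟩ := cond_ff h3
    rw [frc_eq, frc_eq, frcLZ_eq, frcLZ_eq, frcL_eq, mapL_eq, mapL_eq, mapL_eq] at h5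
    obtain ⟨F, h6, h7⟩ := ih (fun u hu => hl u (List.mem_cons_of_mem _ hu)) h5
    refine ⟨_, h6, snd_node h0 (Nat.mul_div_cancel' (Nat.dvd_of_mod_eq_zero (Nat.eq_of_beq_eq_true h4))).symm ?_
      (fun u hu => Nat.eq_of_beq_eq_true (allL_spec h2 u hu)) (hl t List.mem_cons_self) h7⟩
    cases h8 : Nat.beq (ntd w 0 t) 0 with
    | true => exact Or.inr ⟨rfl, Nat.eq_of_beq_eq_true h8⟩
    | false => exact Or.inl rfl

theorem look_vals (V : List ℕ) : ∀ (acc : List (ℕ × ℕ)) (t : ℕ), (t ∈ V ∨ look acc t = a t) →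
    look (vals a V acc) t = a t := by
  induction V with
  | nil => exact fun _ _ h => h.resolve_left List.not_mem_nil
  | cons u V ih =>
    intro acc t h
    refine ih ((u, a u) :: acc) t (or_iff_not_imp_left.2 fun h1 => ?_)
    rw [look]
    split_ifs with h2
    · exact congrArg a h2
    · exact h.resolve_left fun h3 => (List.mem_cons.1 h3).elim (fun e => h2 e.symm) h1

end Cfsg.Agent.N2.Sp1
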