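import Cfsg.Agent.N2.Sp1.Dfs
import Cfsg.Agent.S3993

/-!
# N2 (S3519), sporadic groups: the exact sieve on a character table (helper45)

* `Vec T A v` : `v` is the list of the numbers of the elements of the types in `A`;
* `Hy.sub` : all vectors of subgroups with given order and types; `Hy.bad` : the same for subgroups which are not good.
-/

set_option autoImplicit false
set_option linter.unusedSectionVars false

namespace Cfsg.Agent.N2.Sp1

open Cfsg Cfsg.Agent.FP3 Cfsg.Agent.TAB.Eng Cfsg.Agent.TAB.Use Cfsg.Agent.SB.SporL Cfsg.Agent.TH.Spor Cfsg.Agent.N2.Sp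
open Cfsg.Agent.SM.Sp (cond_ff val)

variable {K : Type} [Group K] [Finite K] {D : Dat} {T : TD K D} {R : Rows} {ν : List ℕ} {A : Subgroup K}

/-- the numbers of the elements of the types -/
def Vec (T : TD K D) (A : Subgroup K) (v : List ℕ) : Prop := ∀ t < D.n, num T A t = ntd v 0 t

/-- the sum is divisible by the order -/
def Dv (T : TD K D) (A : Subgroup K) (w : List ℤ) : Prop := (Nat.card A : ℤ) ∣ val T A w

theorem dv_rel (h : Tab T R) (hi : okIdx R = true) (A : Subgroup K) : ∀ w ∈ mapL Prod.snd R.rel, Dv T A w := by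
  intro w hw
  rw [mapL_eq] at hw
  obtain ⟨r, hr, rfl⟩ := List.mem_map.1 hw
  obtain ⟨i, h1, rfl⟩ := List.getElem_of_mem hr
  obtain ⟨χ, hE, hR⟩ := h
  have := Fintype.ofFinite A
  choose! m hm using fun j (hj : j < R.n) => SM.Sp.exists_mult (hE.irr j hj) A
  have h2 := (SM.Sp.val_mult hR hi hm i).2
  rw [ntd_eq _ _ h1] at h2
  exact ⟨_, h2⟩

theorem sum_ite (A : Subgroup K) (p : ℕ → Prop) [DecidablePred p] :
    ∑ t ∈ Finset.range D.n, (if p t then num T A t else 0) = Nat.card {x : A // p (T.ty x)} := by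
  classical
  have := Fintype.ofFinite A
  have h1 := sum_num (T := T) A fun t => if p t then 1 else 0
  rw [Nat.card_eq_fintype_card, Fintype.card_subtype, Finset.card_filter, h1]
  exact Finset.sum_congr rfl fun t _ => by split_ifs <;> simp

/-- the rows of Frobenius -/
noncomputable def fro (D : Dat) (m d : ℕ) : List ℤ :=
  mapL (fun t => cond (Nat.beq (Nat.mod d (D.ord t)) 0) (Int.ofNat (Nat.div m d)) (Int.ofNat 0)) (List.range D.n)

theorem nth_range (f : ℕ → ℤ) {n t : ℕ} (h : t < n) : nth (mapL f (List.range n)) t = f t := by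
  rw [mapL_eq, nth_eq, List.getD_eq_getElem _ _ (by simpa using h), List.getElem_map, List.getElem_range]

theorem dv_fro {d : ℕ} (h : d ∣ Nat.card A) : Dv T A (fro D (Nat.card A) d) := by
  have h1 := S3993.result d h
  have h2 : Nat.card {x : A // D.ord (T.ty x) ∣ d} = Nat.card {g : A // g ^ d = 1} :=
    Nat.card_congr (Equiv.subtypeEquivRight fun x => by rw [← T.ord, Subgroup.orderOf_coe, orderOf_dvd_iff_pow_eq_one])
  rw [← h2, ← sum_ite (T := T) A fun t => D.ord t ∣ d] at h1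
  have h3 : val T A (fro D (Nat.card A) d) =
      ((Nat.card A / d * ∑ t ∈ Finset.range D.n, (if D.ord t ∣ d then num T A t else 0) : ℕ) : ℤ) := by
    rw [val, Finset.mul_sum, Nat.cast_sum]
    refine Finset.sum_congr rfl fun t ht => ?_
    rw [fro, nth_range _ (Finset.mem_range.1 ht)]
    split_ifs with h3
    · rw [show Nat.mod d (D.ord t) = 0 from Nat.mod_eq_zero_of_dvd h3, mul_comm, Nat.cast_mul]
      rfl
    · rw [show Nat.beq (Nat.mod d (D.ord t)) 0 = false from
        Bool.eq_false_iff.2 fun e => h3 (Nat.dvd_of_mod_eq_zero (Nat.eq_of_beq_eq_true e))]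
      simp
  rw [Dv, h3, Int.natCast_dvd_natCast]
  conv_lhs => rw [← Nat.div_mul_cancel h]
  exact Nat.mul_dvd_mul_left _ h1

theorem dv_cmb {W : List (List ℤ)} (h : ∀ w ∈ W, Dv T A w) (c : List (ℕ × ℕ)) : Dv T A (cmb W c) := by
  have h0 : Dv T A [] := by
    rw [Dv, val, Finset.sum_eq_zero fun t _ => by rw [nth_nil, mul_zero]]
    exact dvd_zero _
  induction c with
  | nil => exact h0
  | cons p c ih =>
    have h1 : Dv T A (ntd W [] p.2) := (ntd_mem W [] p.2).elim (fun e => e.symm ▸ h0) (h _)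
    have h2 : ∀ t, nth (cmb W (p :: c)) t = p.1 * nth (ntd W [] p.2) t + nth (cmb W c) t :=
      fun t => nth_comb_cons W _ _ t
    simp only [Dv, val] at h1 ih ⊢
    simp only [h2, mul_add, Finset.sum_add_distrib, mul_left_comm _ (p.1 : ℤ), ← Finset.mul_sum]
    exact dvd_add (h1.mul_left _) ih

/-- reduction -/
noncomputable def red (M : ℕ) (w : List ℤ) : List ℕ := mapL (fun z => Int.toNat (Int.emod z (Int.ofNat M))) w

theorem red_mod {M : ℕ} (h : 0 < M) (w : List ℤ) (t : ℕ) :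
    ((ntd (red M w) 0 t : ℕ) : ℤ) ≡ nth w t [ZMOD M] := by
  induction w generalizing t with
  | nil => rfl
  | cons z w ih =>
    cases t with
    | zero =>
      show ((Int.toNat (z % M) : ℕ) : ℤ) ≡ z [ZMOD M]
      rw [Int.toNat_of_nonneg (Int.emod_nonneg _ (Int.natCast_ne_zero.2 h.ne'))]
      exact Int.mod_modEq _ _
    | succ t => exact ih t

theorem sN_mod {a : ℕ → ℕ} {M : ℕ} (h : 0 < M) (w : List ℤ) (V : List ℕ) :
    (sN a V (red M w) : ℤ) ≡ sZ a V w [ZMOD M] := by
  induction V with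
  | nil => rfl
  | cons t V ih =>
    show ((a t * ntd (red M w) 0 t + sN a V (red M w) : ℕ) : ℤ) ≡ a t * nth w t + sZ a V w [ZMOD M]
    push_cast
    exact ((red_mod h w t).mul_left _).add ih

omit [Finite K] in
theorem num_zero {V : List ℕ} (hS : Sup T A V) {t : ℕ} (h : t ∉ 0 :: V) : num T A t = 0 := by
  by_contra h1
  obtain ⟨a, ha, rfl⟩ := num_ne h1
  exact h (List.mem_cons.2 (hS a ha))

omit [Finite K] in
theorem sum_split {M : Type} [AddCommMonoid M] {V : List ℕ} (hS : Sup T A V) (h1 : (0 :: V).Nodup)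
    (h2 : ∀ t ∈ V, t < D.n) (F : ℕ → ℕ → M) (hF : ∀ t, F 0 t = 0) :
    ∑ t ∈ Finset.range D.n, F (num T A t) t = F (num T A 0) 0 + (V.map fun t => F (num T A t) t).sum := by
  rw [← Finset.sum_subset (s₁ := (0 :: V).toFinset) (fun t ht => ?_) fun t _ ht => ?_, List.sum_toFinset _ h1]
  · rfl
  · rcases List.mem_cons.1 (List.mem_toFinset.1 ht) with rfl | ht
    exacts [Finset.mem_range.2 (Nat.lt_of_le_of_lt (Nat.zero_le _) (T.lt 1)), Finset.mem_range.2 (h2 t ht)]
  · rw [num_zero hS fun e => ht (List.mem_toFinset.2 e), hF]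

/-- evaluate rows -/
noncomputable def frcV (L : List (List ℕ)) : (List (List ℕ) → Bool) → Bool :=
  List.rec (fun κ => κ []) (fun r _ ih κ => frcL r fun y => ih fun L' => κ (y :: L')) L

theorem frcV_eq (L : List (List ℕ)) (κ : List (List ℕ) → Bool) : frcV L κ = κ L := by
  induction L generalizing κ with
  | nil => rfl
  | cons r L ih =>
    show (frcL r fun y => frcV L fun L' => κ (y :: L')) = _
    rw [frcL_eq, ih]

/-- the vector is in the list -/
noncomputable def sol (n : ℕ) (SOL : List (List ℕ)) (acc : List (ℕ × ℕ)) : Bool :=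
  frcL (mapL (look acc) (List.range n)) fun y => anyL (fun v => allL (fun t => Nat.beq (ntd v 0 t) (ntd y 0 t))
    (List.range n)) SOL

/-- the check for the order `m` and the types `V` -/
noncomputable def one (D : Dat) (WP WR : List (List ℤ)) (SOL : List (List ℕ)) (lo : ℕ → ℕ) (m : ℕ) (V ds : List ℕ)
    (C : List (List (ℕ × ℕ))) : Bool :=
  cond (allL (fun d => Nat.beq (Nat.mod m d) 0) ds && decide (0 :: V).Nodup && allL (fun t => Nat.blt t D.n) V)
    (Sp.frcW (WR ++ mapL (fro D m) ds) fun WB => frcV (mapL (fun c => red m (cmb WB c)) C) fun WM =>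
      List.rec false (fun w WM' _ => cond (allL (fun u => Nat.beq (ntd w 0 u) 0) V)
        (cond (Nat.beq (Nat.mod (ntd w 0 0) m) 0) (lev m lo WP (sol D.n SOL) V WM' fun F =>
          frcLZ (mapL (fun v => nth v 0) WP) fun P => frcL (mapL (fun v => ntd v 0 0) WM') fun Q =>
            F (Nat.sub m 1) P Q [(0, 1)]) true) false) WM) false

theorem one_spec (h0 : num T A 0 = 1) {WP WR : List (List ℤ)} (hP : Pos T A WP) (hR : ∀ w ∈ WR, Dv T A w)
    {V : List ℕ} (hS : Sup T A V) {lo : ℕ → ℕ} (hl : ∀ t ∈ V, num T A t = 0 ∨ lo t ≤ num T A t)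
    {SOL : List (List ℕ)} {ds : List ℕ} {C : List (List (ℕ × ℕ))}
    (h : one D WP WR SOL lo (Nat.card A) V ds C = true) : ∃ v ∈ SOL, Vec T A v := by
  obtain ⟨h1, h2⟩ := cond_ff h
  rw [Bool.and_eq_true, Bool.and_eq_true, decide_eq_true_eq] at h1
  obtain ⟨⟨h3, h4⟩, h5⟩ := h1
  have h6 : ∀ t ∈ V, t < D.n := fun t ht => Nat.blt_eq ▸ allL_spec h5 t ht
  have e1 : ∀ w, val T A w = nth w 0 + sZ (num T A) V w := fun w => by
    rw [val, sum_split hS h4 h6 (fun x t => (x : ℤ) * nth w t) fun t => by simp, h0, Nat.cast_one, one_mul]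
    rfl
  have e2 : Nat.card A - 1 = (V.map (num T A)).sum := by
    rw [card_eq_sum (T := T) A, sum_split hS h4 h6 (fun x _ => x) fun _ => rfl, h0, Nat.add_sub_cancel_left]
  have hm : 0 < Nat.card A := Nat.card_pos
  rw [Sp.frcW_eq, frcV_eq] at h2
  have h7 : ∀ w ∈ mapL (fun c => red (Nat.card A) (cmb (WR ++ mapL (fro D (Nat.card A)) ds) c)) C,
      Nat.card A ∣ ntd w 0 0 + sN (num T A) V w := fun w hw => by
    rw [mapL_eq] at hw
    obtain ⟨c, -, rfl⟩ := List.mem_map.1 hw
    have h7 := dv_cmb (T := T) (A := A) (W := WR ++ mapL (fro D (Nat.card A)) ds) (fun w hw => (List.mem_append.1 hw).elim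
      (hR w) fun h7 => by
        rw [mapL_eq] at h7
        obtain ⟨d, hd, rfl⟩ := List.mem_map.1 h7
        exact dv_fro (Nat.dvd_of_mod_eq_zero (Nat.eq_of_beq_eq_true (allL_spec h3 d hd)))) c
    rw [Dv, e1] at h7
    rw [← Int.natCast_dvd_natCast, Nat.cast_add]
    exact (((red_mod hm _ 0).add (sN_mod hm _ V)).dvd_iff).2 h7
  generalize mapL (fun c => red (Nat.card A) (cmb (WR ++ mapL (fro D (Nat.card A)) ds) c)) C = WM at h2 h7
  cases WM with
  | nil => cases h2
  | cons w WM =>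
  obtain ⟨h8, h9⟩ := cond_ff (show cond (allL (fun u => Nat.beq (ntd w 0 u) 0) V)
    (cond (Nat.beq (ntd w 0 0 % Nat.card A) 0) (lev (Nat.card A) lo WP (sol D.n SOL) V WM fun F =>
      frcLZ (mapL (fun v => nth v 0) WP) fun P => frcL (mapL (fun v => ntd v 0 0) WM) fun Q =>
        F (Nat.card A - 1) P Q [(0, 1)]) true) false = true from h2)
  have h10 := h7 w List.mem_cons_self
  rw [sN_zero fun u hu => Nat.eq_of_beq_eq_true (allL_spec h8 u hu), add_zero] at h10
  rw [Nat.mod_eq_zero_of_dvd h10, Nat.beq_refl, cond_true] at h9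
  obtain ⟨F, h11, h12⟩ := snd_lev hm V hl h9
  rw [frcLZ_eq, frcL_eq, mapL_eq, mapL_eq, e2] at h11
  have h13 := h12 _ _ _ (fa_map fun v hv => e1 v ▸ hP v hv) (fa_map fun v hv => h7 v (List.mem_cons_of_mem _ hv)) h11
  rw [sol, frcL_eq] at h13
  obtain ⟨v, hv, h14⟩ := anyL_spec h13
  refine ⟨v, hv, fun t ht => ?_⟩
  rw [Nat.eq_of_beq_eq_true (allL_spec h14 t (List.mem_range.2 ht)), mapL_eq, ntd_eq _ _ (by simpa using ht),
    List.getElem_map, List.getElem_range, look_vals V _ t (or_iff_not_imp_left.2 fun h15 => ?_)]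
  rw [look]
  split_ifs with h16
  · exact h16 ▸ h0.symm
  · exact (num_zero hS fun e => (List.mem_cons.1 e).elim (fun e => h16 e.symm) h15).symm

/-- the check for an arbitrary subgroup of order `m` with types in `V` -/
noncomputable def chkS (D : Dat) (R : Rows) (SOL : List (List ℕ)) (m : ℕ) (V ds : List ℕ) (C : List (List (ℕ × ℕ))) :
    Bool := cond (okIdx R) (Sp.frcW (rowsP R) fun WP => one D WP (mapL Prod.snd R.rel) SOL (fun _ => 1) m V ds C) false

/-- **subgroups with given order and types** -/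
theorem sub (H : Sp.Hy T R ν) {V : List ℕ} (hS : Sup T A V) {m : ℕ} (hm : Nat.card A = m) {SOL : List (List ℕ)}
    {ds : List ℕ} {C : List (List (ℕ × ℕ))} (h : chkS D R SOL m V ds C = true) : ∃ v ∈ SOL, Vec T A v := by
  subst hm
  obtain ⟨h1, h2⟩ := cond_ff h
  rw [Sp.frcW_eq] at h2
  exact one_spec (H.num0 A) (H.pos (pos_nil A)) (dv_rel H.tab h1 A) hS (fun t _ => Nat.eq_zero_or_pos _) h2

/-- the lower bound -/
noncomputable def thr (D : Dat) (ν : List ℕ) (f m t : ℕ) : ℕ :=
  Nat.div (Nat.sub (Nat.add (Nat.mul (Nat.mul f m) (ntd ν 0 t)) D.N) 1) D.N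

theorem thr_le (H : Sp.Hy T R ν) {f : ℕ} {a : K} (hf : f ≤ fx A a) : thr D ν f (Nat.card A) (T.ty a) ≤ num T A (T.ty a) := by
  have h0 : 0 < D.N := H.mass.1 ▸ Nat.card_pos
  have h1 := (Nat.mul_le_mul_right _ (Nat.mul_le_mul_right _ hf)).trans (H.den A a)
  show (f * Nat.card A * ntd ν 0 (T.ty a) + D.N - 1) / D.N ≤ _
  rw [← Nat.lt_succ_iff, Nat.div_lt_iff_lt_mul h0, Nat.succ_mul, mul_comm (num T A _)]
  omega

/-- certificates: order, bound for the fixed points, divisors, combinations -/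
abbrev Ct : Type := ℕ × ℕ × List ℕ × List (List (ℕ × ℕ))

/-- the check for one order -/
noncomputable def oneB (D : Dat) (ν : List ℕ) (O : Sp.Out) (WP WR : List (List ℤ)) (SOL : List (List ℕ)) (c : Ct) : Bool :=
  cond (Nat.ble (Nat.mul (Nat.pow (Nat.sub c.2.1 1) 3) c.1) D.N)
    (flt (fun t => anyL (fun e => Nat.beq e.1 t && Nat.ble e.2.1 c.1 && Nat.ble c.1 e.2.2) O &&
      Nat.beq (Nat.mod c.1 (D.ord t)) 0 && Nat.ble (thr D ν c.2.1 c.1 t) c.1) (mapL Prod.fst O) fun V0 =>
      flt (fun t => allL (fun d => frc (D.pwf t d) fun u => Nat.beq u 0 || mem V0 u) [2, 3, 5]) V0 fun V =>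
        one D WP WR SOL (thr D ν c.2.1 c.1) c.1 V c.2.2.1 c.2.2.2) false

theorem anyL_of {α : Type} {f : α → Bool} {l : List α} {x : α} (hx : x ∈ l) (h : f x = true) : anyL f l = true := by
  induction l with
  | nil => cases hx
  | cons b l ih =>
    show cond (f b) true (anyL f l) = true
    rcases List.mem_cons.1 hx with rfl | hx
    · rw [h, cond_true]
    · rw [ih hx, Bool.cond_self]

theorem allL_of {α : Type} {f : α → Bool} {l : List α} (h : ∀ x ∈ l, f x = true) : allL f l = true := by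
  induction l with
  | nil => rfl
  | cons b l ih =>
    show cond (f b) (allL f l) false = true
    rw [h b List.mem_cons_self, cond_true]
    exact ih fun x hx => h x (List.mem_cons_of_mem _ hx)

/-- the check for a list of orders -/
noncomputable def chkB (D : Dat) (R : Rows) (ν : List ℕ) (O : Sp.Out) (SOL : List (List ℕ)) (CL : List Ct) : Bool :=
  cond (okIdx R) (frcL ν fun ν' => Sp.frcW (rowsP R) fun WP => Sp.frcW (mapL Prod.snd R.rel) fun WR =>
    allL (oneB D ν' O WP WR SOL) CL) false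

/-- **subgroups which are not good** -/
theorem bad (H : Sp.Hy T R ν) (hb : ¬ Good A) {O : Sp.Out} {U : ℕ} (hO : Res T A O U) {SOL : List (List ℕ)} {CL : List Ct}
    (h : chkB D R ν O SOL CL = true) (hm : Nat.card A ∈ CL.map Prod.fst) : ∃ v ∈ SOL, Vec T A v := by
  obtain ⟨h1, h2⟩ := cond_ff h
  rw [frcL_eq, Sp.frcW_eq, Sp.frcW_eq] at h2
  obtain ⟨⟨m, f, ds, C⟩, h3, rfl : m = _⟩ := List.mem_map.1 hm
  obtain ⟨h4, h5⟩ := cond_ff (allL_spec h2 _ h3)
  rw [flt_eq, flt_eq] at h5
  have hf : ∀ a ∈ A, f ≤ fx A a := fun a ha => H.le_fx hb le_rfl (Nat.le_of_ble_eq_true h4) ha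
  have h6 : Sup T A ((mapL Prod.fst O).filter fun t => anyL (fun e => Nat.beq e.1 t && Nat.ble e.2.1 (Nat.card A) &&
      Nat.ble (Nat.card A) e.2.2) O && Nat.beq (Nat.mod (Nat.card A) (D.ord t)) 0 &&
      Nat.ble (thr D ν f (Nat.card A) t) (Nat.card A)) := fun a ha => (hO.2 a ha).imp id fun ⟨e, h6, h7, h8, h9⟩ => by
    refine List.mem_filter.2 ⟨mapL_eq _ O ▸ List.mem_map.2 ⟨e, h6, h7.symm⟩, ?_⟩
    rw [anyL_of h6 (by rw [h7, Nat.beq_refl, Nat.ble_eq_true_of_le h8, Nat.ble_eq_true_of_le h9]; rfl), ← T.ord,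
      show Nat.mod (Nat.card A) (orderOf a) = 0 from Nat.mod_eq_zero_of_dvd (A.orderOf_dvd_natCard ha),
      Nat.ble_eq_true_of_le ((thr_le H (hf a ha)).trans (num_le A _))]
    rfl
  refine one_spec (H.num0 A) (H.pos (pos_nil A)) (dv_rel H.tab h1 A) (fun a ha => (h6 a ha).imp id fun h7 =>
    List.mem_filter.2 ⟨h7, allL_of fun d _ => ?_⟩) (fun t _ => or_iff_not_imp_left.2 fun h7 => ?_) h5
  · rw [frc_eq, ← T.pow]
    rcases h6 _ (A.pow_mem ha d) with h8 | h8
    · rw [h8]
      rfl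
    · rw [mem_of h8, Bool.or_true]
  · obtain ⟨a, ha, rfl⟩ := num_ne h7
    exact thr_le H (hf a ha)

/-- the list contains the divisors up to `U` -/
noncomputable def cov (N U : ℕ) (L : List ℕ) : Bool :=
  frcL L fun L' => lp (fun i => cond (Nat.beq (Nat.mod N (Nat.add i 2)) 0) (mem L' (Nat.add i 2)) true) (Nat.sub U 1)

theorem of_mem {S : List ℕ} {t : ℕ} (h : mem S t = true) : t ∈ S := by
  induction S with
  | nil => cases h
  | cons a S ih =>
    have h1 : cond (Nat.beq a t) true (mem S t) = true := h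
    cases h2 : Nat.beq a t with
    | true => exact Nat.eq_of_beq_eq_true h2 ▸ List.mem_cons_self
    | false => exact List.mem_cons_of_mem _ (ih (by rwa [h2] at h1))

theorem mem_of_cov (hm : T.Mass) (h0 : A ≠ ⊥) {U : ℕ} (hU : Nat.card A ≤ U) {L : List ℕ} (h : cov D.N U L = true) :
    Nat.card A ∈ L := by
  have h1 : 1 < Nat.card A := (Subgroup.one_lt_card_iff_ne_bot A).2 h0
  rw [cov, frcL_eq] at h
  have h2 := lp_spec h (Nat.card A - 2) (show _ < U - 1 by omega)
  rw [Nat.add_eq, Nat.sub_add_cancel h1, show Nat.mod D.N (Nat.card A) = 0 from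
    Nat.mod_eq_zero_of_dvd (hm.1 ▸ A.card_subgroup_dvd_card)] at h2
  exact of_mem h2

end Cfsg.Agent.N2.Sp1
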